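import Cfsg.Agent.H315.Cov.Base
import Cfsg.Agent.S0252
import Cfsg.Agent.S0254
import Cfsg.Agent.S0256
import Cfsg.Agent.S2086
import Cfsg.Agent.S2087
import Cfsg.Agent.S2088

/-!
# Multipliers without `p`-part: linear groups
-/

set_option autoImplicit false

universe u v w

namespace Cfsg.Agent.H315.Cov

open Cfsg

variable {p : ℕ}

theorem not_dvd_mul {a b : ℕ} (hp : p.Prime) (ha : ¬ p ∣ a) (hb : ¬ p ∣ b) : ¬ p ∣ a * b := fun h =>
  (hp.dvd_mul.1 h).elim ha hb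

theorem not_dvd_prime {q : ℕ} (hp : p.Prime) (hq : q.Prime) (h : p ≠ q) : ¬ p ∣ q := fun h1 =>
  h ((Nat.prime_dvd_prime_iff_eq hp hq).1 h1)

theorem not_dvd_prime_pow {q : ℕ} (hp : p.Prime) (hq : q.Prime) (h : p ≠ q) (k : ℕ) : ¬ p ∣ q ^ k := fun h1 =>
  not_dvd_prime hp hq h (hp.dvd_of_dvd_pow h1)

theorem not_dvd_sub_one {q : ℕ} (hp : p.Prime) (hq : 1 ≤ q) (h : p ∣ q) : ¬ p ∣ q - 1 := fun h1 => by
  have h2 : p ∣ q - (q - 1) := Nat.dvd_sub h h1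
  rw [Nat.sub_sub_self hq] at h2
  exact hp.one_lt.ne' (Nat.dvd_one.1 h2)

theorem not_dvd_add_one {q : ℕ} (hp : p.Prime) (h : p ∣ q) : ¬ p ∣ q + 1 := fun h1 =>
  hp.one_lt.ne' (Nat.dvd_one.1 ((Nat.dvd_add_right h).1 h1))

/-- `PSL_n(q)`: the multiplier has order `gcd(n, q - 1)`, with the exceptions `(2, 4)`, `(2, 9)`, `(3, 2)`,
`(3, 4)`, `(4, 2)`. -/
theorem noMul_psl (hp : p.Prime) {F : Type v} [Field F] [Fintype F] (n : ℕ) (hn : 2 ≤ n)
    (h2 : n = 2 → 4 ≤ Fintype.card F) (hd : ¬ p ∣ Nat.gcd n (Fintype.card F - 1))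
    (he2 : p = 2 → (n, Fintype.card F) ∉ ({(2, 4), (3, 2), (3, 4), (4, 2)} : Set (ℕ × ℕ)))
    (he3 : ¬ (p = 3 ∧ n = 2 ∧ Fintype.card F = 9)) :
    NoMul.{u} p (Matrix.ProjectiveSpecialLinearGroup (Fin n) F) := by
  by_cases hexc : (n, Fintype.card F) ∈ ({(2, 4), (2, 9), (3, 2), (3, 4), (4, 2)} : Set (ℕ × ℕ))
  · simp only [Set.mem_insert_iff, Set.mem_singleton_iff, Prod.mk.injEq, not_or] at hexc he2
    rcases hexc with ⟨rfl, hq⟩ | ⟨rfl, hq⟩ | ⟨rfl, hq⟩ | ⟨rfl, hq⟩ | ⟨rfl, hq⟩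
    · obtain ⟨e'⟩ := S0252.result hq
      refine (noMul_alt hp ?_ 5 (by norm_num) (by omega)).congr e'
      rintro rfl
      exact (he2 rfl).1 ⟨rfl, hq⟩
    · obtain ⟨e'⟩ := S0254.result hq
      refine (noMul_alt hp ?_ 6 (by norm_num) (fun h => he3 ⟨h.1, rfl, hq⟩)).congr e'
      rintro rfl
      rw [hq] at hd
      exact hd (by norm_num)
    · refine NoMul.of_cyclic (S2087.result hq) (not_dvd_prime hp Nat.prime_two ?_)
      rintro rfl
      exact (he2 rfl).2.1 ⟨rfl, hq⟩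
    · refine NoMul.of_mult (S2088.result hq) ?_
      have h1 : Nat.card (Multiplicative (ZMod 3 × ZMod 4 × ZMod 4)) = 3 * 2 ^ 4 := by simp
      rw [h1]
      refine not_dvd_mul hp ?_ (not_dvd_prime_pow hp Nat.prime_two ?_ 4)
      · rw [hq] at hd
        exact hd
      · rintro rfl
        exact (he2 rfl).2.2.1 ⟨rfl, hq⟩
    · obtain ⟨e'⟩ := S0256.result hq
      refine (noMul_alt hp ?_ 8 (by norm_num) (by omega)).congr e'
      rintro rfl
      exact (he2 rfl).2.2.2 ⟨rfl, hq⟩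
  · exact NoMul.of_cyclic (S2086.result (F := F) rfl n hn h2 hexc) hd

/-- Odd primes. -/
theorem noMul_psl_odd (hp : p.Prime) (hp2 : p ≠ 2) {F : Type v} [Field F] [Fintype F] (n : ℕ) (hn : 2 ≤ n)
    (h2 : n = 2 → 4 ≤ Fintype.card F) (hd : ¬ p ∣ Nat.gcd n (Fintype.card F - 1))
    (he3 : ¬ (p = 3 ∧ n = 2 ∧ Fintype.card F = 9)) :
    NoMul.{u} p (Matrix.ProjectiveSpecialLinearGroup (Fin n) F) :=
  noMul_psl hp n hn h2 hd (fun h => absurd h hp2) he3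

/-- The own characteristic. -/
theorem noMul_psl_own (hp : p.Prime) {F : Type v} [Field F] [Fintype F] (hF : p ∣ Fintype.card F) (n : ℕ)
    (hn : 2 ≤ n) (h2 : n = 2 → 4 ≤ Fintype.card F)
    (he : (n, Fintype.card F) ∉ ({(2, 4), (2, 9), (3, 2), (3, 4), (4, 2)} : Set (ℕ × ℕ))) :
    NoMul.{u} p (Matrix.ProjectiveSpecialLinearGroup (Fin n) F) := by
  simp only [Set.mem_insert_iff, Set.mem_singleton_iff, Prod.mk.injEq, not_or] at he
  refine noMul_psl hp n hn h2 (fun h => ?_) (fun _ h => ?_) (fun h => he.2.1 ⟨h.2.1, h.2.2⟩)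
  · exact not_dvd_sub_one hp Fintype.one_lt_card.le hF (h.trans (Nat.gcd_dvd_right _ _))
  · simp only [Set.mem_insert_iff, Set.mem_singleton_iff, Prod.mk.injEq] at h
    rcases h with h | h | h | h
    · exact he.1 h
    · exact he.2.2.1 h
    · exact he.2.2.2.1 h
    · exact he.2.2.2.2 h

end Cfsg.Agent.H315.Cov
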