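import Cfsg.Agent.H315.Cov.Base
import Cfsg.Agent.H585.BD.Dl

/-!
# `NoCover p S` from `NoMul p S`
-/

set_option autoImplicit false

universe u v w

namespace Cfsg.Agent.H315.Cov

open Cfsg Cfsg.Agent.H585.BD

variable {p : ℕ} [hp : Fact p.Prime]

theorem NoMul.noCover {S : Type u} [Group S] (h : NoMul.{u} p S) : NoCover p S := by
  intro Y _ _ f hf
  exact h.injective hf.surj (fun y hy => hf.cent y hy) hf.perf hf.pgrp

/-- Transport along an isomorphism from another universe. -/
theorem NoMul.noCover_of_equiv {S : Type u} [Group S] {T : Type w} [Group T] (h : NoMul.{u} p T)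
    (e : S ≃* T) : NoCover p S :=
  (h.congr e).noCover

end Cfsg.Agent.H315.Cov
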