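import Cfsg.Agent.H315.Cov.Lin
import Cfsg.Agent.S0822
import Cfsg.Agent.S2089
import Cfsg.Agent.S2090
import Cfsg.Agent.S2091
import Cfsg.Agent.S2092
import Cfsg.Agent.S2093

/-!
# Multipliers without `p`-part: symplectic and unitary groups
-/

set_option autoImplicit false

universe u v w

namespace Cfsg.Agent.H315.Cov

open Cfsg

variable {p : ℕ}

/-- `PSp_2m(q)`: the multiplier has order `gcd(2, q - 1)`, with the exception `Sp_6(2)`. -/
theorem noMul_psp (hp : p.Prime) {F : Type v} [Field F] [Fintype F] (m : ℕ) (hm : 2 ≤ m)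
    (h2 : m = 2 → 3 ≤ Fintype.card F) (hd : p = 2 → Even (Fintype.card F) ∧ ¬ (m = 3 ∧ Fintype.card F = 2)) :
    NoMul.{u} p (PSp m F) := by
  by_cases hexc : m = 3 ∧ Fintype.card F = 2
  · obtain ⟨rfl, hq⟩ := hexc
    refine NoMul.of_cyclic (S2093.result hq) (not_dvd_prime hp Nat.prime_two ?_)
    rintro rfl
    exact (hd rfl).2 ⟨rfl, hq⟩
  · refine NoMul.of_cyclic (S2092.result rfl m hm h2 hexc) fun h => ?_
    have h3 : p = 2 := (Nat.prime_dvd_prime_iff_eq hp Nat.prime_two).1 (h.trans (Nat.gcd_dvd_left _ _))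
    subst h3
    exact not_dvd_sub_one hp Fintype.one_lt_card.le (hd rfl).1.two_dvd (h.trans (Nat.gcd_dvd_right _ _))

theorem noMul_psp_odd (hp : p.Prime) (hp2 : p ≠ 2) {F : Type v} [Field F] [Fintype F] (m : ℕ) (hm : 2 ≤ m)
    (h2 : m = 2 → 3 ≤ Fintype.card F) : NoMul.{u} p (PSp m F) :=
  noMul_psp hp m hm h2 fun h => absurd h hp2

/-- `PSU_n(q)`: the multiplier has order `gcd(n, q + 1)`, with the exceptions `(4, 2)`, `(4, 3)`, `(6, 2)`. -/
theorem noMul_psu (hp : p.Prime) {F : Type v} [Field F] [Fintype F] (n q : ℕ) (hF : Fintype.card F = q ^ 2)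
    (hn : 3 ≤ n) (h32 : ¬ (n = 3 ∧ q = 2)) (hd : ¬ p ∣ Nat.gcd n (q + 1))
    (he2 : p = 2 → (n, q) ∉ ({(4, 2), (6, 2)} : Set (ℕ × ℕ))) (he3 : ¬ (p = 3 ∧ n = 4 ∧ q = 3)) :
    NoMul.{u} p (PSU n F q) := by
  by_cases hexc : (n, q) ∈ ({(4, 2), (4, 3), (6, 2)} : Set (ℕ × ℕ))
  · simp only [Set.mem_insert_iff, Set.mem_singleton_iff, Prod.mk.injEq, not_or] at hexc he2
    rcases hexc with ⟨rfl, rfl⟩ | ⟨rfl, rfl⟩ | ⟨rfl, rfl⟩
    · have hK : Fintype.card (ZMod 3) = 3 := ZMod.card 3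
      obtain ⟨e'⟩ := S0822.result (F := F) (K := ZMod 3) (by rw [hF]; norm_num) hK
      refine (NoMul.of_cyclic (S2092.result hK 2 le_rfl (fun _ => le_rfl) (by omega)) fun h => ?_).congr e'
      have h3 : p = 2 := (Nat.prime_dvd_prime_iff_eq hp Nat.prime_two).1 (h.trans (Nat.gcd_dvd_left _ _))
      exact (he2 h3).1 ⟨rfl, rfl⟩
    · refine NoMul.of_mult (S2090.result (by rw [hF]; norm_num)) ?_
      have h1 : Nat.card (Multiplicative (ZMod 4 × ZMod 3 × ZMod 3)) = 2 ^ 2 * 3 ^ 2 := by simp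
      rw [h1]
      refine not_dvd_mul hp (not_dvd_prime_pow hp Nat.prime_two ?_ 2) (not_dvd_prime_pow hp Nat.prime_three ?_ 2)
      · rintro rfl
        exact hd (by norm_num)
      · rintro rfl
        exact he3 ⟨rfl, rfl, rfl⟩
    · refine NoMul.of_mult (S2091.result (by rw [hF]; norm_num)) ?_
      have h1 : Nat.card (Multiplicative (ZMod 3 × ZMod 2 × ZMod 2)) = 3 * 2 ^ 2 := by simp
      rw [h1]
      refine not_dvd_mul hp ?_ (not_dvd_prime_pow hp Nat.prime_two ?_ 2)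
      · exact hd
      · rintro rfl
        exact (he2 rfl).2 ⟨rfl, rfl⟩
  · exact NoMul.of_cyclic (S2089.result n q hF hn h32 hexc) hd

theorem noMul_psu_odd (hp : p.Prime) (hp2 : p ≠ 2) {F : Type v} [Field F] [Fintype F] (n q : ℕ)
    (hF : Fintype.card F = q ^ 2) (hn : 3 ≤ n) (h32 : ¬ (n = 3 ∧ q = 2)) (hd : ¬ p ∣ Nat.gcd n (q + 1))
    (he3 : ¬ (p = 3 ∧ n = 4 ∧ q = 3)) : NoMul.{u} p (PSU n F q) :=
  noMul_psu hp n q hF hn h32 hd (fun h => absurd h hp2) he3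

/-- The own characteristic. -/
theorem noMul_psu_own (hp : p.Prime) {F : Type v} [Field F] [Fintype F] (n q : ℕ) (hF : Fintype.card F = q ^ 2)
    (hn : 3 ≤ n) (h32 : ¬ (n = 3 ∧ q = 2)) (hq : p ∣ q)
    (he : (n, q) ∉ ({(4, 2), (4, 3), (6, 2)} : Set (ℕ × ℕ))) : NoMul.{u} p (PSU n F q) := by
  refine NoMul.of_cyclic (S2089.result n q hF hn h32 he) fun h => ?_
  exact not_dvd_add_one hp hq (h.trans (Nat.gcd_dvd_right _ _))

end Cfsg.Agent.H315.Cov
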